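import Groth.Agent.PerfA.Localizing
import Groth.Agent.PerfA.CompactRel

/-!
# Localizing subcategories containing compact generators, absolute form
-/

set_option autoImplicit false

universe w v u t

open CategoryTheory CategoryTheory.Limits Pretriangulated

namespace Groth.Agent.Dual.H379.GenLoc

open Groth.Agent.CohtopA.BrownW Groth.Agent.LoccohB.FullSubTri

variable {D : Type u} [Category.{v} D] [Preadditive D] [HasZeroObject D] [HasShift D ℤ]
    [∀ n : ℤ, (shiftFunctor D n).Additive] [Pretriangulated D]

theorem top_isTriangulated : (⊤ : ObjectProperty D).IsTriangulated where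
  toContainsZero := inferInstance
  isStableUnderShiftBy _ := ⟨fun _ _ => trivial⟩
  ext₂' _ _ _ _ := ObjectProperty.le_isoClosure _ _ trivial

/-- A triangulated subcategory closed under coproducts and containing a family of compact generators is
everything. -/
theorem prop_of_compactW [HasCoproducts.{w} D] [LocallySmall.{w} D] (L : ObjectProperty D) [L.IsTriangulated]
    [L.IsClosedUnderIsomorphisms]
    (hL : ∀ (J : Type w) (K : J → D), (∀ j, L (K j)) → L (∐ K))
    {κ : Type t} [Small.{w} κ] (E : κ → D) (hE : ∀ k, IsCompactW.{w} (E k)) (hE' : CohDer.Generates E)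
    (hEL : ∀ k, L (E k)) (X : D) : L X := by
  have := top_isTriangulated (D := D)
  refine PerfA.Localizing.prop_of_localizing (⊤ : ObjectProperty D) L
    (fun _ _ _ => trivial) (fun J K _ h => hL J K h) E
    (fun k => ?_) (fun _ => trivial) hEL (fun X _ h => ?_) X trivial
  · rw [PerfA.CompactRel.isCompactObjRel_iff]
    intro ι X _ _ f
    exact hE k ι X _ (coproductIsCoproduct X) f
  · apply hE'
    intro k n f
    have h1 := h k (-n) (((shiftEquiv' D (-n) n (neg_add_cancel n)).toAdjunction.homEquiv
      (E k) X).symm f)
    have h2 := congrArg ((shiftEquiv' D (-n) n (neg_add_cancel n)).toAdjunction.homEquiv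
      (E k) X) h1
    rw [Equiv.apply_symm_apply] at h2
    rw [h2, Adjunction.homEquiv_unit]
    exact (congrArg (fun t => _ ≫ t) (Functor.map_zero (shiftFunctor D n) _ _)).trans comp_zero

end Groth.Agent.Dual.H379.GenLoc
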