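import Groth.Agent.Dual.H379.DQMon
import Groth.Agent.Dual.H379.GenLoc
import Groth.Agent.S1054

/-!
# `a = Lf^*(-) ⊗ a(O)` when `Rf_*` preserves perfect complexes

`f : X ⟶ Y` a morphism of quasi-compact quasi-separated schemes, `a` a right adjoint of
`Rf_* : D_QCoh(O_X) ⥤ D_QCoh(O_Y)`.

* `θ : Lf^*(-) ⊗ a(1) ⟶ a`, natural; `isIso_θ_of_isPerfect`: isomorphism on perfect objects;
* `isIso_θ`: if `Rf_*` preserves perfect objects, `θ` is an isomorphism;
* `nonempty_iso`: `a ≅ Lf^*(-) ⊗ a(O)`.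
-/

set_option autoImplicit false

universe u

open CategoryTheory CategoryTheory.Limits AlgebraicGeometry MonoidalCategory

attribute [local instance] HasDerivedCategory.standard

open scoped Groth.Agent.Dcoh.MonCat Groth.Agent.Dcoh.ModD

namespace Groth.Agent.Dual.H379.TwistMain

open Groth.Agent.Dcoh Groth.Agent.PerfC.DTens Groth.Agent.PerfC.IsoLocus DQMon

variable {X Y : Scheme.{u}}

section

variable (f : X ⟶ Y) [DCoh.HasLpull f]

lemma lpullQCoh (K : DCoh.DQCoh Y) : DCoh.IsQCohD ((DCoh.Lpull f).obj K.obj) :=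
  S1054.result f _ K.property

/-- `Lf^* : D_QCoh(O_Y) ⥤ D_QCoh(O_X)`. -/
noncomputable abbrev LQ : DCoh.DQCoh Y ⥤ DCoh.DQCoh X :=
  ObjectProperty.lift DCoh.IsQCohD (ObjectProperty.ι DCoh.IsQCohD ⋙ DCoh.Lpull f) (lpullQCoh f)

/-- `Lf^*` is monoidal on `D_QCoh`. -/
@[instance_reducible]
noncomputable def lqMonoidal : (LQ f).Monoidal :=
  letI := lpullMon f
  FullMon.liftMonoidal DCoh.IsQCohD DCoh.IsQCohD (DCoh.Lpull f) (lpullQCoh f)

variable [DCoh.HasRpush f] (hf : DCoh.RpushPreservesQCoh f)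

/-- `Lf^* ⊣ Rf_*` on `D_QCoh`. -/
noncomputable def adjQ : LQ f ⊣ DCoh.RpushQ f hf :=
  FullMon.liftAdj DCoh.IsQCohD DCoh.IsQCohD (lpullQCoh f) (DerPull.lpullAdj f)
    (fun K => hf K.obj K.property)

/-- The projection maps on `D_QCoh` are isomorphisms. -/
theorem isIso_projQ [QuasiCompact f] [QuasiSeparated f] (K : DCoh.DQCoh Y) (A : DCoh.DQCoh X) :
    letI := lqMonoidal f
    IsIso (ModVia.proj (LQ f) (adjQ f hf) K A) := by
  let := lpullMon f
  let := lqMonoidal f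
  have h1 : (ModVia.proj (LQ f) (adjQ f hf) K A).hom =
      ModVia.proj (DCoh.Lpull f) (DerPull.lpullAdj f) K.obj A.obj :=
    FullMon.proj_hom DCoh.IsQCohD DCoh.IsQCohD (DCoh.Lpull f) (lpullQCoh f) (DerPull.lpullAdj f)
      (fun K => hf K.obj K.property) K A
  have h2 : IsIso ((ObjectProperty.ι DCoh.IsQCohD).map (ModVia.proj (LQ f) (adjQ f hf) K A)) := by
    change IsIso (ModVia.proj (LQ f) (adjQ f hf) K A).hom
    rw [h1]
    exact isIso_proj f K.obj K.property A.obj A.property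
  exact isIso_of_reflects_iso _ (ObjectProperty.ι DCoh.IsQCohD)

variable {a : DCoh.DQCoh Y ⥤ DCoh.DQCoh X} (adj : DCoh.RpushQ f hf ⊣ a)

/-- The natural map `Lf^* K ⊗ a(1) ⟶ a(K)`. -/
noncomputable def θ [QuasiCompact f] [QuasiSeparated f] :
    LQ f ⋙ tensorRight (a.obj (𝟙_ (DCoh.DQCoh Y))) ⟶ a :=
  letI := lqMonoidal f
  ModVia.theta (LQ f) (adjQ f hf) adj (isIso_projQ f hf)

/-- `Lf^* K ⊗ a(1) ⟶ a(K)` is an isomorphism for `K` perfect. -/
theorem isIso_θ_of_isPerfect [QuasiCompact f] [QuasiSeparated f] (K : DCoh.DQCoh Y)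
    (hK : DCoh.IsPerfect K.obj) : IsIso ((θ f hf adj).app K) := by
  let := lqMonoidal f
  obtain ⟨K', hK', ⟨h⟩⟩ := PerfDual.exists_exactPairing K.obj hK
  let K'' : DCoh.DQCoh Y := ⟨K', LoccohB.PerfQCoh.isQCohD_of_isPerfect hK'⟩
  let _ : ExactPairing K.obj K''.obj := h
  let _ := FullMon.pairing DCoh.IsQCohD K K''
  exact ModVia.isIso_theta_app (LQ f) (adjQ f hf) adj (isIso_projQ f hf) K K''

omit [DCoh.HasLpull f] in
include adj in
lemma isTriang_a : IsTriang a := by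
  obtain ⟨_, _, -⟩ := LoccohB.RpushTri.exists_isTriangulated_Rpush f
  let _ := adj.rightAdjointCommShift ℤ
  have := adj.commShift_of_leftAdjoint ℤ
  exact ⟨inferInstance, adj.isTriangulated_rightAdjoint⟩

omit [DCoh.HasLpull f] in
lemma isTriang_tensorRight (A : DCoh.D X) : IsTriang (tensorRight A) := by
  obtain ⟨e⟩ := PerfDual.nonempty_flipIso A
  exact (isTriang_LTX_flip_obj A).of_iso e

lemma isTriang_tensorRightQ (A : DCoh.DQCoh X) : IsTriang (tensorRight A) := by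
  obtain ⟨_, _⟩ := isTriang_tensorRight A.obj
  have h : ∀ K : DCoh.DQCoh X, DCoh.IsQCohD (K.obj ⊗ A.obj) := fun K =>
    isQCohD_tensor K.property A.property
  have h1 : IsTriang (ObjectProperty.lift DCoh.IsQCohD
    (ObjectProperty.ι DCoh.IsQCohD ⋙ tensorRight A.obj) h) := IsTriang.mk' _
  exact h1.of_iso (Iso.refl _)

omit [DCoh.HasRpush f] in
lemma isTriang_LQ : IsTriang (LQ f) := by
  obtain ⟨_, _⟩ := PerfC.ProjAbs291.isTriang_Lpull f
  exact IsTriang.mk' _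

lemma preservesCoproducts_tensorRight (J : Type u) (A : DCoh.D X) :
    PreservesColimitsOfShape (Discrete J) (tensorRight A) := by
  obtain ⟨e⟩ := PerfDual.nonempty_flipIso A
  have := preservesCoproducts_LTX_flip_obj J A
  exact preservesColimitsOfShape_of_natIso e

lemma preservesCoproducts_tensorRightQ (J : Type u) (A : DCoh.DQCoh X) :
    PreservesColimitsOfShape (Discrete J) (tensorRight A) := by
  have h : ∀ K : DCoh.DQCoh X, DCoh.IsQCohD (K.obj ⊗ A.obj) := fun K =>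
    isQCohD_tensor K.property A.property
  have := preservesCoproducts_tensorRight J A.obj
  have h1 : PreservesColimitsOfShape (Discrete J) (ObjectProperty.ι DCoh.IsQCohD ⋙ tensorRight A.obj) :=
    comp_preservesColimitsOfShape _ _
  exact LoccohB.FullSubTri.preservesColimitsOfShape_lift DCoh.IsQCohD DCoh.IsQCohD
    (tensorRight A.obj) h h1

end

section main

variable [CompactSpace X] [QuasiSeparatedSpace X] [CompactSpace Y] [QuasiSeparatedSpace Y]
  (f : X ⟶ Y) [DCoh.HasLpull f] [DCoh.HasRpush f] (hf : DCoh.RpushPreservesQCoh f)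
  {a : DCoh.DQCoh Y ⥤ DCoh.DQCoh X} (adj : DCoh.RpushQ f hf ⊣ a)

/-- If `Rf_*` preserves perfect objects, `Lf^* K ⊗ a(1) ⟶ a(K)` is an isomorphism. -/
theorem isIso_θ (hperf : ∀ P : DCoh.D X, DCoh.IsPerfect P → DCoh.IsPerfect ((DCoh.Rpush f).obj P))
    (K : DCoh.DQCoh Y) : IsIso ((θ f hf adj).app K) := by
  have h1 : ∀ J : Type u, PreservesColimitsOfShape (Discrete J) a := fun J =>
    LoccohB.RightAdj2.preservesCoproducts_of_perfect f hf hperf a adj J
  have h2 : ∀ J : Type u, PreservesColimitsOfShape (Discrete J)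
      (LQ f ⋙ tensorRight (a.obj (𝟙_ (DCoh.DQCoh Y)))) := fun J => by
    have h3 : PreservesColimitsOfShape (Discrete J) (LQ f) :=
      (adjQ f hf).leftAdjoint_preservesColimits.preservesColimitsOfShape
    have h4 := preservesCoproducts_tensorRightQ J (a.obj (𝟙_ (DCoh.DQCoh Y)))
    exact comp_preservesColimitsOfShape _ _
  obtain ⟨P, hP, hPc, hPg⟩ := LoccohB.RightAdj.exists_compact_generator Y
  have := isoLocus_isTriangulated ((isTriang_LQ f).comp (isTriang_tensorRightQ (a.obj (𝟙_ (DCoh.DQCoh Y)))))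
    (isTriang_a f hf adj) (θ f hf adj)
  refine isIso_app (θ f hf adj) ?_
  refine GenLoc.prop_of_compactW (isoLocus (θ f hf adj)) (fun J Z hZ => ?_)
    (fun _ : PUnit.{u + 1} => P) (fun _ => hPc) hPg (fun _ n => ?_) K
  · exact isoLocus_prop_of_isColimit (θ f hf adj) _ (coproductIsCoproduct Z) hZ
  · exact isIso_θ_of_isPerfect f hf adj _ (LoccohB.RightAdj2.isPerfect_shift_DQCoh hP n)

include adj in
/-- `a ≅ Lf^*(-) ⊗ a(O)` if `Rf_*` preserves perfect complexes. -/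
theorem nonempty_iso (hperf : ∀ P : DCoh.D X, DCoh.IsPerfect P → DCoh.IsPerfect ((DCoh.Rpush f).obj P))
    (O : DCoh.DQCoh Y) (hO : Nonempty (O.obj ≅ DCoh.inD Y (Coh.structureModule Y)))
    (E : CochainComplex X.Modules ℤ) (hE : Nonempty (DCoh.toD X E ≅ (a.obj O).obj))
    [DCoh.HasLTensorCx E] :
    Nonempty (a ⋙ ObjectProperty.ι _ ≅ ObjectProperty.ι _ ⋙ DCoh.Lpull f ⋙ DCoh.LTensorCx E) := by
  obtain ⟨eO⟩ := hO
  obtain ⟨eE⟩ := hE
  have h1 := isIso_θ f hf adj hperf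
  have h2 : IsIso (θ f hf adj) := NatIso.isIso_of_isIso_app _
  let e1 : LQ f ⋙ tensorRight (a.obj (𝟙_ (DCoh.DQCoh Y))) ≅ a := asIso (θ f hf adj)
  let e2 : (𝟙_ (DCoh.DQCoh Y)) ≅ O := ObjectProperty.isoMk _ ((DualX.unitIso Y).symm ≪≫ eO.symm)
  let e3 : (a.obj (𝟙_ (DCoh.DQCoh Y))).obj ≅ DerivedCategory.Q.obj E :=
    (ObjectProperty.ι _).mapIso (a.mapIso e2) ≪≫ eE.symm
  let e4 : (LQ f ⋙ tensorRight (a.obj (𝟙_ (DCoh.DQCoh Y)))) ⋙ ObjectProperty.ι DCoh.IsQCohD ≅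
      ObjectProperty.ι DCoh.IsQCohD ⋙ DCoh.Lpull f ⋙ tensorRight (a.obj (𝟙_ (DCoh.DQCoh Y))).obj :=
    Iso.refl _
  exact ⟨(Functor.isoWhiskerRight e1 (ObjectProperty.ι DCoh.IsQCohD)).symm ≪≫ e4 ≪≫
    Functor.isoWhiskerLeft (ObjectProperty.ι DCoh.IsQCohD)
      (Functor.isoWhiskerLeft (DCoh.Lpull f) (MonAdj.tensorRightIso e3 ≪≫ (ModTens.LTensorCxIso E).symm))⟩

end main

end Groth.Agent.Dual.H379.TwistMain
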