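import Groth.Agent.Dual.H379.FullMon
import Groth.Agent.Dcoh.PerfDual
import Groth.Agent.Dcoh.ProjD182
import Groth.Agent.PerfC.ProjAbs291
import Groth.Agent.PerfC.LTXRestr
import Groth.Agent.LoccohB.RightAdj2
import Groth.Agent.PerfA.Localizing
import Groth.Agent.PerfB.StructFlat

/-!
# `D_QCoh` as a monoidal category; the projection map `K ⊗ Rf_* A ⟶ Rf_* (Lf^* K ⊗ A)`

* `isMonoidal_isQCohD`: `D_QCoh(O_X)` is a monoidal subcategory of `D(O_X)`;
* `isIso_proj`: the projection map of the monoidal structure is an isomorphism for `K`, `A` with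
  quasi-coherent cohomology, `f` quasi-compact and quasi-separated.
-/

set_option autoImplicit false

universe u

open CategoryTheory CategoryTheory.Limits AlgebraicGeometry MonoidalCategory

attribute [local instance] HasDerivedCategory.standard

open scoped Groth.Agent.Dcoh.MonCat Groth.Agent.Dcoh.ModD

namespace Groth.Agent.Dual.H379.DQMon

open Groth.Agent.Dcoh Groth.Agent.PerfC.DTens Groth.Agent.PerfC.IsoLocus

variable {X Y : Scheme.{u}}

lemma isQCohD_of_iso {K L : DCoh.D X} (e : K ≅ L) (h : DCoh.IsQCohD K) : DCoh.IsQCohD L :=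
  (DCoh.IsQCohD (X := X)).prop_of_iso e h

/-- The unit of the monoidal category `D(O_X)` is perfect. -/
lemma isPerfect_unit : DCoh.IsPerfect (𝟙_ (DCoh.D X)) :=
  PerfA.PerfLocal.isPerfect_of_iso (DualX.unitIso X) (PerfB.StructFlat.isPerfect_inD_structure (X := X))

lemma isQCohD_unit : DCoh.IsQCohD (𝟙_ (DCoh.D X)) :=
  LoccohB.PerfQCoh.isQCohD_of_isPerfect isPerfect_unit

lemma isQCohD_tensor {K L : DCoh.D X} (hK : DCoh.IsQCohD K) (hL : DCoh.IsQCohD L) :
    DCoh.IsQCohD (K ⊗ L) := by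
  obtain ⟨e⟩ := PerfDual.nonempty_iso K L
  exact isQCohD_of_iso e (PerfC.ProjAbs291.isQCohD_LTX hK hL)

instance isMonoidal_isQCohD : (DCoh.IsQCohD (X := X)).IsMonoidal where
  prop_unit := isQCohD_unit
  prop_tensor _ _ hK hL := isQCohD_tensor hK hL

/-- The monoidal structure on `Lf^*`. -/
@[instance_reducible]
noncomputable def lpullMon (f : X ⟶ Y) [DCoh.HasLpull f] : (DCoh.Lpull f).Monoidal :=
  letI := MonPull.monPull f
  MonLpull182.lpullMonoidal f

/-- The projection map is an isomorphism for `K`, `A` with quasi-coherent cohomology. -/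
theorem isIso_proj (f : X ⟶ Y) [QuasiCompact f] [QuasiSeparated f] [DCoh.HasRpush f] [DCoh.HasLpull f]
    (K : DCoh.D Y) (hK : DCoh.IsQCohD K) (A : DCoh.D X) (hA : DCoh.IsQCohD A) :
    letI := lpullMon f
    IsIso (ModVia.proj (DCoh.Lpull f) (DerPull.lpullAdj f) K A) := by
  let := lpullMon f
  obtain ⟨e1⟩ := PerfDual.nonempty_flipIso ((DCoh.Rpush f).obj A)
  obtain ⟨e2⟩ := PerfDual.nonempty_flipIso A
  let s1 : (LTX Y).obj ((DCoh.Rpush f).obj A) ≅ (LTX Y).flip.obj ((DCoh.Rpush f).obj A) :=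
    (PerfC.LpullTens.symmIso Y).symm.app _
  let s2 : (LTX X).flip.obj A ≅ (LTX X).obj A := (PerfC.LpullTens.symmIso X).app _
  let τ : (LTX Y).obj ((DCoh.Rpush f).obj A) ⟶ DCoh.Lpull f ⋙ (LTX X).obj A ⋙ DCoh.Rpush f :=
    (s1 ≪≫ e1).hom ≫ ModVia.projNat (DCoh.Lpull f) (DerPull.lpullAdj f) A ≫
      (Functor.isoWhiskerLeft (DCoh.Lpull f) (Functor.isoWhiskerRight (e2.symm ≪≫ s2) (DCoh.Rpush f))).hom
  have key : ∀ Z : DCoh.D Y, IsIso (τ.app Z) ↔
      IsIso (ModVia.proj (DCoh.Lpull f) (DerPull.lpullAdj f) Z A) := by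
    intro Z
    have : τ.app Z = (s1 ≪≫ e1).hom.app Z ≫ ModVia.proj (DCoh.Lpull f) (DerPull.lpullAdj f) Z A ≫
      (Functor.isoWhiskerLeft (DCoh.Lpull f)
        (Functor.isoWhiskerRight (e2.symm ≪≫ s2) (DCoh.Rpush f))).hom.app Z := rfl
    rw [this]
    constructor
    · intro h
      have h1 : IsIso (ModVia.proj (DCoh.Lpull f) (DerPull.lpullAdj f) Z A ≫
          (Functor.isoWhiskerLeft (DCoh.Lpull f)
            (Functor.isoWhiskerRight (e2.symm ≪≫ s2) (DCoh.Rpush f))).hom.app Z) :=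
        IsIso.of_isIso_comp_left ((s1 ≪≫ e1).hom.app Z) _
      exact IsIso.of_isIso_comp_right _ ((Functor.isoWhiskerLeft (DCoh.Lpull f)
        (Functor.isoWhiskerRight (e2.symm ≪≫ s2) (DCoh.Rpush f))).hom.app Z)
    · intro h
      infer_instance
  rw [← key]
  refine PerfC.ProjAbs291.isIso_app (fun j _ A B => ⟨PerfC.LTXRestr.restrTensObj j A B⟩) f hA τ
    (fun n => ?_) hK
  rw [key]
  have hp : DCoh.IsPerfect (((DerivedCategory.singleFunctor Y.Modules 0).obj (Coh.structureModule Y))⟦n⟧) :=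
    PerfA.PerfLocal.isPerfect_shift (PerfB.StructFlat.isPerfect_inD_structure (X := Y)) n
  obtain ⟨K', -, ⟨h⟩⟩ := PerfDual.exists_exactPairing _ hp
  exact ModVia.isIso_proj (DCoh.Lpull f) (DerPull.lpullAdj f) _ K' A

end Groth.Agent.Dual.H379.DQMon
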