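import Groth.Agent.Dual.H379.ModVia
import Mathlib.CategoryTheory.Monoidal.Subcategory
import Mathlib.CategoryTheory.Monoidal.Rigid.Basic
import Mathlib.CategoryTheory.Adjunction.Restrict

/-!
# Restriction of monoidal functors, exact pairings and adjunctions to full monoidal subcategories
-/

set_option autoImplicit false

open CategoryTheory MonoidalCategory Category
open Functor.LaxMonoidal Functor.OplaxMonoidal

namespace Groth.Agent.Dual.H379.FullMon

open ModVia

universe v v₁ u u₁

variable {C : Type u} [Category.{v} C] [MonoidalCategory C]
  {D : Type u₁} [Category.{v₁} D] [MonoidalCategory D]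
  (P : ObjectProperty C) [P.IsMonoidal] (P' : ObjectProperty D) [P'.IsMonoidal]

/-- An exact pairing in a full monoidal subcategory. -/
@[instance_reducible]
def pairing (K K' : P.FullSubcategory) [ExactPairing K.obj K'.obj] : ExactPairing K K' where
  coevaluation' := ObjectProperty.homMk (η_ K.obj K'.obj)
  evaluation' := ObjectProperty.homMk (ε_ K.obj K'.obj)
  coevaluation_evaluation' := by
    ext1
    exact ExactPairing.coevaluation_evaluation K.obj K'.obj
  evaluation_coevaluation' := by
    ext1
    exact ExactPairing.evaluation_coevaluation K.obj K'.obj

variable (L : C ⥤ D) (hL : ∀ K : P.FullSubcategory, P' (L.obj K.obj))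

omit [P.IsMonoidal] [P'.IsMonoidal] [MonoidalCategory C] [MonoidalCategory D] in
/-- The functor induced on full subcategories. -/
abbrev lift : P.FullSubcategory ⥤ P'.FullSubcategory := P'.lift (P.ι ⋙ L) hL

/-- The functor induced by a monoidal functor on full monoidal subcategories is monoidal. -/
@[instance_reducible]
def liftMonoidal [L.Monoidal] : (P'.lift (P.ι ⋙ L) hL).Monoidal :=
  Functor.CoreMonoidal.toMonoidal
    { εIso := P'.isoMk (Functor.Monoidal.εIso L)
      μIso := fun X Y => P'.isoMk (Functor.Monoidal.μIso L X.obj Y.obj)
      μIso_hom_natural_left := fun f X' => by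
        ext1
        exact μ_natural_left L f.hom X'.obj
      μIso_hom_natural_right := fun X' f => by
        ext1
        exact μ_natural_right L X'.obj f.hom
      associativity := fun X Y Z => by
        ext1
        exact Functor.LaxMonoidal.associativity L X.obj Y.obj Z.obj
      left_unitality := fun X => by
        ext1
        exact Functor.LaxMonoidal.left_unitality L X.obj
      right_unitality := fun X => by
        ext1
        exact Functor.LaxMonoidal.right_unitality L X.obj }

omit [MonoidalCategory C] [MonoidalCategory D] [P.IsMonoidal] [P'.IsMonoidal] in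
variable {L} in
/-- An adjunction restricts to full subcategories. -/
@[simps]
def liftAdj {R : D ⥤ C} (adj : L ⊣ R) (hR : ∀ K : P'.FullSubcategory, P (R.obj K.obj)) :
    P'.lift (P.ι ⋙ L) hL ⊣ P.lift (P'.ι ⋙ R) hR where
  unit := { app := fun K => ObjectProperty.homMk (adj.unit.app K.obj)
            naturality := fun K K' f => by ext1; exact adj.unit.naturality f.hom }
  counit := { app := fun K => ObjectProperty.homMk (adj.counit.app K.obj)
              naturality := fun K K' f => by ext1; exact adj.counit.naturality f.hom }
  left_triangle_components := fun K => by ext1; exact adj.left_triangle_components K.obj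
  right_triangle_components := fun K => by ext1; exact adj.right_triangle_components K.obj

/-- The projection map of the restricted adjunction. -/
lemma proj_hom [L.Monoidal] {R : D ⥤ C} (adj : L ⊣ R) (hR : ∀ K : P'.FullSubcategory, P (R.obj K.obj))
    (c : P.FullSubcategory) (d : P'.FullSubcategory) :
    letI := liftMonoidal P P' L hL
    (proj (P'.lift (P.ι ⋙ L) hL) (liftAdj P P' hL adj hR) c d).hom = proj L adj c.obj d.obj := by
  dsimp only [proj]
  rw [Adjunction.homEquiv_unit, Adjunction.homEquiv_unit]
  rfl

end Groth.Agent.Dual.H379.FullMon
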