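import Mathlib.CategoryTheory.Monoidal.Action.LinearFunctor
import Mathlib.CategoryTheory.Monoidal.Rigid.Basic
import Mathlib.CategoryTheory.Adjunction.Basic

/-!
# Module functors between categories acted upon by a monoidal category

`C` is a monoidal category acting on `M` and `N`.

* `laxOfAdj adj`: the right adjoint of an oplax linear functor is lax linear;
* `isIso_μₗ`: a lax linear functor is strong at dualizable objects of `C`;
* `leftLinearOfIsIso`, `oplaxOfIsIso`.
-/

set_option autoImplicit false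

open CategoryTheory MonoidalCategory MonoidalLeftAction Category
open Functor.LaxLeftLinear Functor.OplaxLeftLinear

namespace Groth.Agent.Dual.H379.ModFun

universe v v₁ v₂ u u₁ u₂

variable {C : Type u} [Category.{v} C] [MonoidalCategory C]
  {M : Type u₁} [Category.{v₁} M] [MonoidalLeftAction C M]
  {N : Type u₂} [Category.{v₂} N] [MonoidalLeftAction C N]

section adj

variable {F : M ⥤ N} {G : N ⥤ M} (adj : F ⊣ G) [F.OplaxLeftLinear C]

/-- The lax structure of a right adjoint. -/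
def mu (c : C) (y : N) : c ⊙ₗ G.obj y ⟶ G.obj (c ⊙ₗ y) :=
  adj.homEquiv _ _ (δₗ F c (G.obj y) ≫ c ⊴ₗ adj.counit.app y)

lemma homEquiv_symm_mu (c : C) (y : N) :
    (adj.homEquiv _ _).symm (mu adj c y) = δₗ F c (G.obj y) ≫ c ⊴ₗ adj.counit.app y := by
  simp [mu]

@[reassoc]
lemma F_map_mu_counit (c : C) (y : N) :
    F.map (mu adj c y) ≫ adj.counit.app _ = δₗ F c (G.obj y) ≫ c ⊴ₗ adj.counit.app y := by
  rw [← homEquiv_symm_mu, Adjunction.homEquiv_counit]

omit [MonoidalLeftAction C M] [MonoidalLeftAction C N] [F.OplaxLeftLinear C] in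
@[reassoc]
lemma counit_nat {y y' : N} (f : y ⟶ y') :
    F.map (G.map f) ≫ adj.counit.app y' = adj.counit.app y ≫ f := adj.counit.naturality f

omit [MonoidalLeftAction C M] [MonoidalLeftAction C N] [F.OplaxLeftLinear C] in
/-- Two morphisms into `G.obj y` agree if their transposes do. -/
lemma hom_ext_G {x : M} {y : N} {f g : x ⟶ G.obj y}
    (h : F.map f ≫ adj.counit.app y = F.map g ≫ adj.counit.app y) : f = g := by
  apply (adj.homEquiv x y).symm.injective
  rwa [Adjunction.homEquiv_counit, Adjunction.homEquiv_counit]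

/-- The right adjoint of an oplax linear functor is lax linear. -/
@[instance_reducible]
def laxOfAdj : G.LaxLeftLinear C where
  μₗ c y := mu adj c y
  μₗ_naturality_left {c c'} f y := by
    apply hom_ext_G adj
    rw [F.map_comp, assoc, F_map_mu_counit, F.map_comp, assoc, counit_nat,
      F_map_mu_counit_assoc, δₗ_naturality_left_assoc, action_exchange]
  μₗ_naturality_right c {y y'} f := by
    apply hom_ext_G adj
    rw [F.map_comp, assoc, F_map_mu_counit, F.map_comp, assoc, counit_nat,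
      F_map_mu_counit_assoc, δₗ_naturality_right_assoc, ← actionHomRight_comp, ← actionHomRight_comp,
      counit_nat]
  μₗ_associativity c c' y := by
    apply hom_ext_G adj
    simp only [F.map_comp, assoc]
    rw [counit_nat, F_map_mu_counit_assoc, F_map_mu_counit, δₗ_naturality_right_assoc,
      ← actionHomRight_comp, F_map_mu_counit, actionHomRight_comp]
    rw [tensor_actionHomRight_assoc, Iso.inv_hom_id, comp_id, δₗ_associativity_assoc]
  μₗ_unitality y := by
    apply hom_ext_G adj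
    simp only [F.map_comp, assoc]
    rw [counit_nat, F_map_mu_counit_assoc, unit_actionHomRight_assoc, Iso.inv_hom_id, comp_id,
      δₗ_unitality_hom_assoc]

lemma laxOfAdj_mu (c : C) (y : N) : @Functor.LaxLeftLinear.μₗ _ _ _ _ G C _ _ _ _ (laxOfAdj adj) c y = mu adj c y := rfl

end adj

section inv

/-- The oplax structure inverse to a lax structure which is strong. -/
@[instance_reducible]
noncomputable def oplaxOfIsIso (F : M ⥤ N) [F.LaxLeftLinear C] (h : ∀ (c : C) (x : M), IsIso (μₗ F c x)) :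
    F.OplaxLeftLinear C where
  δₗ c x := inv (μₗ F c x)
  δₗ_naturality_left f x := by
    rw [IsIso.comp_inv_eq, assoc, μₗ_naturality_left, IsIso.inv_hom_id_assoc]
  δₗ_naturality_right c {x x'} f := by
    rw [IsIso.comp_inv_eq, assoc, μₗ_naturality_right, IsIso.inv_hom_id_assoc]
  δₗ_associativity c c' x := by
    rw [IsIso.inv_comp_eq, μₗ_associativity_assoc]
    simp
  δₗ_unitality_inv x := by
    rw [← μₗ_unitality_inv]
    simp

end inv

section zigzag

/-- The second zigzag identity acting on an object. -/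
lemma zigzag (K K' : C) [ExactPairing K K'] (z : M) :
    (λₗ[C] (K ⊙ₗ z)).inv ≫ η_ K K' ⊵ₗ (K ⊙ₗ z) ≫ (αₗ K K' (K ⊙ₗ z)).hom ≫
      K ⊴ₗ ((αₗ K' K z).inv ≫ ε_ K K' ⊵ₗ z ≫ (λₗ[C] z).hom) = 𝟙 _ := by
  have h := congrArg (fun f => f ⊵ₗ z) (ExactPairing.evaluation_coevaluation K K')
  simp only [comp_actionHomLeft] at h
  rw [whiskerRight_actionHomLeft, whiskerLeft_actionHomLeft, leftUnitor_actionHom] at h
  have h1 : (α_ K K' K).hom ⊵ₗ z ≫ (αₗ K (K' ⊗ K) z).hom =
      (αₗ (K ⊗ K') K z).hom ≫ (αₗ K K' (K ⊙ₗ z)).hom ≫ K ⊴ₗ (αₗ K' K z).inv := by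
    rw [← associator_actionHom_assoc, actionHomRight_hom_inv, comp_id]
  have h2 : (ρ_ K).inv ⊵ₗ z = K ⊴ₗ (λₗ[C] z).inv ≫ (αₗ K (𝟙_ C) z).inv := by
    rw [← cancel_epi ((ρ_ K).hom ⊵ₗ z), hom_inv_actionHomLeft, rightUnitor_actionHom]
    simp
  rw [h2] at h
  simp only [assoc] at h
  rw [reassoc_of% h1, Iso.inv_hom_id_assoc] at h
  have h3 := ((cancel_epi _).1 h) =≫ ((αₗ K (𝟙_ C) z).hom ≫ K ⊴ₗ (λₗ[C] z).hom)
  simp only [assoc, Iso.inv_hom_id_assoc, comp_id, actionHomRight_inv_hom] at h3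
  rw [Iso.inv_comp_eq, comp_id, actionHomRight_comp, actionHomRight_comp, h3]

end zigzag

section dual

variable (F : M ⥤ N) [F.LaxLeftLinear C] (K K' : C) [ExactPairing K K']

/-- The inverse of the lax structure at a dualizable object. -/
def sigma (x : M) : F.obj (K ⊙ₗ x) ⟶ K ⊙ₗ F.obj x :=
  (λₗ[C] (F.obj (K ⊙ₗ x))).inv ≫ η_ K K' ⊵ₗ _ ≫ (αₗ K K' _).hom ≫
    K ⊴ₗ (μₗ F K' (K ⊙ₗ x) ≫ F.map ((αₗ K' K x).inv ≫ ε_ K K' ⊵ₗ x ≫ (λₗ[C] x).hom))

lemma mu_sigma (x : M) : μₗ F K x ≫ sigma F K K' x = 𝟙 _ := by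
  rw [← zigzag K K' (F.obj x), sigma, ← actionUnitIso_inv_naturality_assoc, action_exchange_assoc,
    tensor_actionHomRight_assoc, Iso.inv_hom_id_assoc, ← actionHomRight_comp]
  simp only [F.map_comp]
  rw [μₗ_associativity_inv_assoc, ← μₗ_naturality_left_assoc, ← μₗ_unitality]

lemma sigma_mu (x : M) : sigma F K K' x ≫ μₗ F K x = 𝟙 _ := by
  rw [← F.map_id, ← zigzag K K' x, sigma]
  simp only [assoc]
  rw [actionHomRight_comp, assoc, μₗ_naturality_right, ← μₗ_associativity_assoc,
    μₗ_naturality_left_assoc, μₗ_unitality_inv_assoc]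
  simp only [← F.map_comp]

include K' in
theorem isIso_μₗ (x : M) : IsIso (μₗ F K x) :=
  ⟨sigma F K K' x, mu_sigma F K K' x, sigma_mu F K K' x⟩

end dual

end Groth.Agent.Dual.H379.ModFun
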