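import Groth.Agent.Dual.H379.ModFun
import Mathlib.CategoryTheory.Monoidal.Functor

/-!
# The action of a monoidal category through a monoidal functor

`L : C ⥤ D` a monoidal functor between monoidal categories.

* `actionVia L`: the action `c ⊙ d = L c ⊗ d` of `C` on `D`;
* `proj adj c d : c ⊗ R d ⟶ R (L c ⊗ d)`, for `adj : L ⊣ R`: the projection map; `isIso_proj`: it is an
  isomorphism for `c` dualizable;
* `exists_theta`: if all projection maps are isomorphisms and `R ⊣ a`, there is a natural map
  `L c ⊗ a 1 ⟶ a c`, which is an isomorphism for `c` dualizable.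
-/

set_option autoImplicit false

open CategoryTheory MonoidalCategory Category
open Functor.LaxMonoidal Functor.OplaxMonoidal

namespace Groth.Agent.Dual.H379.ModVia

open ModFun

universe v v₁ u u₁

variable {C : Type u} [Category.{v} C] [MonoidalCategory C]
  {D : Type u₁} [Category.{v₁} D] [MonoidalCategory D]

section via

variable (L : C ⥤ D) [L.Monoidal]

/-- The action of `C` on `D` through a monoidal functor `L : C ⥤ D`. -/
@[instance_reducible]
def actionVia : MonoidalLeftAction C D where
  actionObj c d := L.obj c ⊗ d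
  actionHomLeft f d := L.map f ▷ d
  actionHomRight c _ _ g := L.obj c ◁ g
  actionHom f g := L.map f ▷ _ ≫ _ ◁ g
  actionAssocIso c c' d := whiskerRightIso (Functor.Monoidal.μIso L c c').symm d ≪≫ α_ _ _ _
  actionUnitIso d := whiskerRightIso (Functor.Monoidal.εIso L).symm d ≪≫ λ_ d
  actionHom_def := by
    intros; rfl
  actionHomRight_id := by
    intros; simp
  id_actionHomLeft := by
    intros; simp
  actionHom_comp := by
    intros
    simp only [Functor.map_comp, comp_whiskerRight, whiskerLeft_comp, assoc]
    rw [whisker_exchange_assoc]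
  actionAssocIso_hom_naturality {c₁ c₂ c₃ c₄ d₁ d₂} f g h := by
    simp only [Iso.trans_hom, whiskerRightIso_hom, Iso.symm_hom, Functor.Monoidal.μIso_inv, assoc,
      whiskerLeft_comp]
    rw [whisker_exchange_assoc, ← comp_whiskerRight_assoc, ← δ_natural, comp_whiskerRight_assoc,
      tensorHom_def]
    simp
  actionUnitIso_hom_naturality f := by
    simp only [Iso.trans_hom, whiskerRightIso_hom, Iso.symm_hom, Functor.Monoidal.εIso_inv, assoc]
    rw [whisker_exchange_assoc, leftUnitor_naturality]
  whiskerLeft_actionHomLeft c {c' c''} f d := by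
    have h : L.map (c ◁ f) = δ L c c' ≫ L.obj c ◁ L.map f ≫ μ L c c'' := by simp
    rw [h, comp_whiskerRight, comp_whiskerRight, whisker_assoc]
    simp only [Iso.trans_hom, Iso.trans_inv, whiskerRightIso_hom, whiskerRightIso_inv, Iso.symm_hom,
      Iso.symm_inv, Functor.Monoidal.μIso_inv, Functor.Monoidal.μIso_hom, assoc]
  whiskerRight_actionHomLeft {c c'} c'' f d := by
    have h : L.map (f ▷ c'') = δ L c c'' ≫ L.map f ▷ L.obj c'' ≫ μ L c' c'' := by simp
    rw [h, comp_whiskerRight, comp_whiskerRight, whiskerRight_tensor]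
    simp only [Iso.trans_hom, Iso.trans_inv, whiskerRightIso_hom, whiskerRightIso_inv, Iso.symm_hom,
      Iso.symm_inv, Functor.Monoidal.μIso_inv, Functor.Monoidal.μIso_hom, assoc,
      Iso.hom_inv_id_assoc]
  associator_actionHom c₁ c₂ c₃ d := by
    have h := congrArg (fun f => f ▷ d) (Functor.OplaxMonoidal.associativity L c₁ c₂ c₃)
    simp only [comp_whiskerRight] at h
    simp only [Iso.trans_hom, whiskerRightIso_hom, Iso.symm_hom, Functor.Monoidal.μIso_inv, assoc,
      whiskerLeft_comp]
    rw [← associator_naturality_middle_assoc, ← reassoc_of% h, ← associator_naturality_left_assoc,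
      pentagon]
  leftUnitor_actionHom c d := by
    have h := congrArg (fun f => f ▷ d) (Functor.OplaxMonoidal.left_unitality_hom L c)
    simp only [comp_whiskerRight] at h
    rw [← h]
    simp only [Iso.trans_hom, whiskerRightIso_hom, Iso.symm_hom, Functor.Monoidal.μIso_inv, assoc,
      Functor.Monoidal.εIso_inv, leftUnitor_whiskerRight, whiskerRight_tensor,
      Iso.hom_inv_id_assoc]
  rightUnitor_actionHom c d := by
    have h := congrArg (fun f => f ▷ d) (Functor.OplaxMonoidal.right_unitality_hom L c)
    simp only [comp_whiskerRight] at h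
    rw [← h, ← triangle, whisker_assoc]
    simp only [Iso.trans_hom, whiskerRightIso_hom, Iso.symm_hom, Functor.Monoidal.μIso_inv, assoc,
      Functor.Monoidal.εIso_inv, whiskerLeft_comp, Iso.inv_hom_id_assoc]

/-- A monoidal functor is linear. -/
@[instance_reducible]
def linearVia : letI := actionVia L; L.OplaxLeftLinear C :=
  letI := actionVia L
  { δₗ := fun c x => δ L c x
    δₗ_naturality_left := fun {c c'} f x => (δ_natural_left L f x).symm
    δₗ_naturality_right := fun c {x x'} f => (δ_natural_right L c f).symm
    δₗ_associativity := fun c c' x => Functor.OplaxMonoidal.associativity L c c' x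
    δₗ_unitality_inv := fun x => by
      have h := Functor.OplaxMonoidal.left_unitality L x
      change (λ_ (L.obj x)).inv ≫ ε L ▷ L.obj x = L.map (λ_ x).inv ≫ δ L (𝟙_ C) x
      rw [h]
      simp }

variable {R : D ⥤ C} (adj : L ⊣ R)

/-- The projection map `c ⊗ R d ⟶ R (L c ⊗ d)`. -/
def proj (c : C) (d : D) : c ⊗ R.obj d ⟶ R.obj (L.obj c ⊗ d) :=
  adj.homEquiv _ _ (δ L c (R.obj d) ≫ L.obj c ◁ adj.counit.app d)

/-- The lax linear structure of `R`. -/
@[instance_reducible]
def linearR : letI := actionVia L; R.LaxLeftLinear C :=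
  letI := actionVia L
  letI := linearVia L
  laxOfAdj adj

lemma linearR_μₗ (c : C) (d : D) : letI := actionVia L; letI := linearR L adj
    Functor.LaxLeftLinear.μₗ R c d = proj L adj c d := rfl

/-- The projection map is an isomorphism for `c` dualizable. -/
theorem isIso_proj (c c' : C) [ExactPairing c c'] (d : D) : IsIso (proj L adj c d) :=
  letI := actionVia L
  letI := linearR L adj
  isIso_μₗ R c c' d

/-- Naturality of the projection map. -/
@[reassoc]
lemma proj_naturality_left {c c' : C} (f : c ⟶ c') (d : D) :
    f ▷ R.obj d ≫ proj L adj c' d = proj L adj c d ≫ R.map (L.map f ▷ d) :=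
  letI := actionVia L
  letI := linearR L adj
  Functor.LaxLeftLinear.μₗ_naturality_left R f d

/-- Naturality of the projection map. -/
@[reassoc]
lemma proj_naturality_right (c : C) {d d' : D} (f : d ⟶ d') :
    c ◁ R.map f ≫ proj L adj c d' = proj L adj c d ≫ R.map (L.obj c ◁ f) :=
  letI := actionVia L
  letI := linearR L adj
  Functor.LaxLeftLinear.μₗ_naturality_right R c f

/-- The projection map, as a natural transformation in the first variable. -/
@[simps]
def projNat (d : D) : tensorRight (R.obj d) ⟶ L ⋙ tensorRight d ⋙ R where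
  app c := proj L adj c d
  naturality _ _ f := proj_naturality_left L adj f d

variable {a : C ⥤ D} (adj' : R ⊣ a)

/-- The map `L c ⊗ a e ⟶ a (c ⊗ e)`, adjoint to the inverse of the projection map composed with the counit. -/
noncomputable def twist (h : ∀ (c : C) (d : D), IsIso (proj L adj c d)) (c e : C) :
    L.obj c ⊗ a.obj e ⟶ a.obj (c ⊗ e) :=
  haveI := h c (a.obj e)
  adj'.homEquiv _ _ (inv (proj L adj c (a.obj e)) ≫ c ◁ adj'.counit.app e)

/-- The oplax linear structure of `R`. -/
@[instance_reducible]
noncomputable def oplaxR (h : ∀ (c : C) (d : D), IsIso (proj L adj c d)) :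
    letI := actionVia L; R.OplaxLeftLinear C :=
  letI := actionVia L
  letI := linearR L adj
  oplaxOfIsIso R h

/-- The lax linear structure of `a`. -/
@[instance_reducible]
noncomputable def linearA (h : ∀ (c : C) (d : D), IsIso (proj L adj c d)) :
    letI := actionVia L; a.LaxLeftLinear C :=
  letI := actionVia L
  letI := oplaxR L adj h
  laxOfAdj adj'

lemma linearA_μₗ (h : ∀ (c : C) (d : D), IsIso (proj L adj c d)) (c e : C) :
    letI := actionVia L; letI := linearA L adj adj' h
    Functor.LaxLeftLinear.μₗ a c e = twist L adj adj' h c e := rfl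

/-- `L c ⊗ a e ⟶ a (c ⊗ e)` is an isomorphism for `c` dualizable. -/
theorem isIso_twist (h : ∀ (c : C) (d : D), IsIso (proj L adj c d)) (c c' : C) [ExactPairing c c'] (e : C) :
    IsIso (twist L adj adj' h c e) :=
  letI := actionVia L
  letI := linearA L adj adj' h
  isIso_μₗ a c c' e

/-- Naturality. -/
@[reassoc]
lemma twist_naturality_left (h : ∀ (c : C) (d : D), IsIso (proj L adj c d)) {c c' : C} (f : c ⟶ c') (e : C) :
    L.map f ▷ a.obj e ≫ twist L adj adj' h c' e = twist L adj adj' h c e ≫ a.map (f ▷ e) :=
  letI := actionVia L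
  letI := linearA L adj adj' h
  Functor.LaxLeftLinear.μₗ_naturality_left a f e

/-- Naturality. -/
@[reassoc]
lemma twist_naturality_right (h : ∀ (c : C) (d : D), IsIso (proj L adj c d)) (c : C) {e e' : C} (f : e ⟶ e') :
    L.obj c ◁ a.map f ≫ twist L adj adj' h c e' = twist L adj adj' h c e ≫ a.map (c ◁ f) :=
  letI := actionVia L
  letI := linearA L adj adj' h
  Functor.LaxLeftLinear.μₗ_naturality_right a c f

/-- The natural transformation `L c ⊗ a 1 ⟶ a c`. -/
noncomputable def theta (h : ∀ (c : C) (d : D), IsIso (proj L adj c d)) :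
    L ⋙ tensorRight (a.obj (𝟙_ C)) ⟶ a where
  app c := twist L adj adj' h c (𝟙_ C) ≫ a.map (ρ_ c).hom
  naturality c c' f := by
    dsimp
    rw [twist_naturality_left_assoc, assoc, ← a.map_comp, ← a.map_comp, rightUnitor_naturality]

/-- `L c ⊗ a 1 ⟶ a c` is an isomorphism for `c` dualizable. -/
theorem isIso_theta_app (h : ∀ (c : C) (d : D), IsIso (proj L adj c d)) (c c' : C) [ExactPairing c c'] :
    IsIso ((theta L adj adj' h).app c) := by
  have := isIso_twist L adj adj' h c c' (𝟙_ C)
  dsimp [theta]
  infer_instance

end via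

end Groth.Agent.Dual.H379.ModVia
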